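import Mathlib
import Cfsg.Agent.Lib.Helper51.TIH.Defs
import Cfsg.Agent.Lib.Helper1.FpfSylow

/-!
# S4118 (team project TIH): package [SYL]

Sylow subgroups of a group `H` with a fixed-point-free action on a nontrivial finite group `K`
are cyclic or generalized quaternion: apply `Helper1.sylow_cyclic_of_fpf` (from S0040 / S0016)
inside the semidirect product `K ⋊ H`.
-/

set_option autoImplicit false

namespace Cfsg.Agent.Lib.Helper79.TIH

open Cfsg.Agent.Lib.Helper51.TIH

universe u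

/-- **[SYL]** -/
theorem pkgSyl : PkgSyl.{u} := by
  intro H _ _ hfpf p _ P
  obtain ⟨K, hKg, hKf, ρ, hnt, hfix⟩ := hfpf
  have hfinΓ : Finite (K ⋊[ρ] H) := Finite.of_equiv _ SemidirectProduct.equivProd.symm
  let K' : Subgroup (K ⋊[ρ] H) := (SemidirectProduct.inl : K →* K ⋊[ρ] H).range
  let H' : Subgroup (K ⋊[ρ] H) := (SemidirectProduct.inr : H →* K ⋊[ρ] H).range
  have hKn : K'.Normal := by
    have e : K' = (SemidirectProduct.rightHom : K ⋊[ρ] H →* H).ker :=
      SemidirectProduct.range_inl_eq_ker_rightHom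
    rw [e]
    infer_instance
  have hK' : K' ≠ ⊥ := by
    obtain ⟨k, hk⟩ := exists_ne (1 : K)
    intro hbot
    have h1 : (SemidirectProduct.inl k : K ⋊[ρ] H) ∈ K' := ⟨k, rfl⟩
    rw [hbot, Subgroup.mem_bot] at h1
    apply hk
    apply SemidirectProduct.inl_injective (φ := ρ)
    rw [h1, map_one]
  have hfpf' : ∀ h ∈ H', h ≠ 1 → ∀ k ∈ K', h * k = k * h → k = 1 := by
    rintro _ ⟨h, rfl⟩ hne _ ⟨k, rfl⟩ hcomm
    have hh : h ≠ 1 := by
      rintro rfl
      exact hne (map_one _)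
    have h1 : (SemidirectProduct.inl (ρ h k) : K ⋊[ρ] H) = SemidirectProduct.inl k := by
      rw [SemidirectProduct.inl_aut, hcomm, mul_assoc, ← map_mul, mul_inv_cancel, map_one,
        mul_one]
    have h2 : ρ h k = k := SemidirectProduct.inl_injective h1
    rw [hfix h hh k h2, map_one]
  let e : H ≃* ↥H' := MonoidHom.ofInjective (SemidirectProduct.inr_injective (φ := ρ))
  let P' : Sylow p ↥H' := P.mapSurjective (f := e.toMonoidHom) e.surjective
  have hP' : (P' : Subgroup ↥H') = (P : Subgroup H).map e.toMonoidHom :=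
    Sylow.coe_mapSurjective _ P
  have eP : ↥(P : Subgroup H) ≃* ↥(P' : Subgroup ↥H') :=
    (e.subgroupMap (P : Subgroup H)).trans (MulEquiv.subgroupCongr hP'.symm)
  rcases @Cfsg.Agent.Lib.Helper1.sylow_cyclic_of_fpf _ _ hfinΓ K' H' hKn hK' hfpf' p _ P' with
    h | ⟨_, n, ⟨f⟩⟩
  · left
    exact isCyclic_of_surjective eP.symm eP.symm.surjective
  · right
    exact ⟨n, ⟨eP.trans f⟩⟩

end Cfsg.Agent.Lib.Helper79.TIH
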